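import Cfsg.Agent.OD.Pre
import Cfsg.Agent.H6.M24B
import Cfsg.Agent.H6.M24DA.D0
set_option autoImplicit false
set_option maxRecDepth 100000
set_option Elab.async false
set_option linter.all false
namespace CfH6.M24D
open CfH6 CfH6.D MulAction
theorem iD0 : Rng (chkInvT (fun x => fD (Nat.succ x)) M24B.il 3 759) 0 759 := rng_of 0 5 119 759 (by decide +kernel)
theorem rD0 : Rng (chkRelT (fun x => fD (Nat.succ x)) M24B.rels) 0 759 := rng_of 0 5 119 759 (by decide +kernel)
theorem dD0 : Rng (chkId fD) 0 759 := rng_of 0 5 119 759 (by decide +kernel)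
theorem sD0 : Rng (chkSl fD sa sb 5 119) 4 64 := rng_of 4 0 60 64 (by decide +kernel)
end CfH6.M24D
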